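import Cfsg.Agent.Lib.L2S.Bas
import Cfsg.Agent.Lib.L2S.Defs4
import Cfsg.Agent.S3224
import Cfsg.Agent.Lib.SL2.Cases
import Cfsg.Agent.Lib.Invol.BaerSuzuki

/-! Basic facts for the case `q = 4`. -/

set_option autoImplicit false
set_option linter.unusedSectionVars false

namespace H25.L2

open Subgroup H4.YM H4.TL Matrix MatrixGroups

variable {G : Type*} [Group G] [Finite G] {F : Type*} [Field F] [Finite F]

theorem Q4B.mem_zp {S : Type*} [Group S] {x y : S} (xx : x * x = 1) :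
    y ∈ zpowers x ↔ y = 1 ∨ y = x := by
  refine ⟨fun ⟨n, e⟩ => ?_, fun e => e.elim (· ▸ one_mem _) (· ▸ mem_zpowers _)⟩
  obtain ⟨m, rfl | rfl⟩ := Int.even_or_odd' n
  · exact Or.inl (by rw [← e]; simp only [_root_.zpow_mul, zpow_two, xx, _root_.one_zpow])
  · exact Or.inr (by rw [← e]; simp only [_root_.zpow_add, _root_.zpow_mul, zpow_two, xx,
      _root_.one_zpow, one_mul, zpow_one])

theorem exists_grow {T N : Subgroup G} (h : IsPGroup 2 T) (hN : T ≤ N) (h2 : ¬ Syl T N) :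
    ∃ x ∈ N, x ∈ normalizer (T : Set G) ∧ x ∉ T ∧ x * x ∈ T := by
  obtain ⟨R, h1, S⟩ := exists_syl h hN
  obtain ⟨y, hy, n1, n2⟩ := H9.exists_mem_normalizer_of_lt S.pg
    (lt_of_le_of_ne h1 fun e => h2 (e ▸ S))
  obtain ⟨k, hk⟩ := pg_pow S.pg hy
  have hk' : y ^ 2 ^ k ∈ T := hk ▸ one_mem _
  clear hk
  induction k generalizing y with
  | zero => exact absurd (by simpa using hk') n1
  | succ k ih =>
    by_cases e : y * y ∈ T
    · exact ⟨y, S.le hy, n2, n1, e⟩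
    · exact ih _ (mul_mem hy hy) e (mul_mem n2 n2) (by rwa [← pow_two, ← pow_mul, ← pow_succ'])

/-- `2`-groups of maximal class -/
theorem maxcl {S : Type*} [Group S] [Finite S] (hS : IsPGroup 2 S) {x : S} (xx : x * x = 1)
    (x1 : x ≠ 1) (h : Nat.card (centralizer ({x} : Set S)) ≤ 4) :
    ∃ c : S, Nat.card S ≤ 2 * orderOf c := by
  have o2 : orderOf x = 2 := orderOf_eq_prime (by rwa [pow_two]) x1
  by_cases h4 : Nat.card (centralizer ({x} : Set S)) = 4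
  · rcases Cfsg.Agent.S3224.result hS x o2 h4 with ⟨n, ⟨e⟩⟩ | ⟨n, -, e, c, -, d, -⟩ | e
    · exact ⟨e.symm (.r 1), by
        rw [MulEquiv.orderOf_eq, DihedralGroup.orderOf_r_one, Nat.card_congr e.toEquiv,
          DihedralGroup.nat_card]⟩
    · exact ⟨c, by rw [e, d, pow_succ']⟩
    · exact ⟨x, by rw [e, o2]⟩
  · obtain ⟨z, -, -, z1, hz⟩ := exists_central (P := (⊤ : Subgroup S)) (hS.to_subgroup _)
      fun e => x1 (mem_bot.1 (e.le (mem_top x)))
    obtain ⟨n, e⟩ := pg_card (hS.to_subgroup (centralizer {x}))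
    have h2 : Nat.card (centralizer ({x} : Set S)) ≤ Nat.card (zpowers x) := by
      rw [Nat.card_zpowers, o2, e]
      rw [e] at h h4
      have : n ≤ 2 := (Nat.pow_le_pow_iff_right (by norm_num)).1 (show 2 ^ n ≤ 2 ^ 2 from h)
      interval_cases n <;> omega
    have h3 := eq_of_le_of_card_ge (zpowers_le.2 (mem_cen.2 (cj_eq_iff.2 rfl))) h2
    obtain rfl : z = x := ((Q4B.mem_zp xx).1 (h3.ge (mem_cen.2 (cj_comm.1 (hz x trivial))))).resolve_left z1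
    rw [show centralizer ({z} : Set S) = ⊤ from eq_top_iff.2 fun g _ => mem_cen.2 (hz g trivial),
      card_top] at h
    exact ⟨z, by omega⟩

/-- the same for a section `P / N` of `G` -/
theorem maxcl' {P N : Subgroup G} (hP : IsPGroup 2 P) (hN : N ≤ P)
    (hn : ∀ p ∈ P, ∀ n ∈ N, cj p n ∈ N) {x : G} (hx : x ∈ P) (xx : x * x ∈ N) (x1 : x ∉ N)
    (h : {p | p ∈ P ∧ x⁻¹ * cj p x ∈ N}.ncard ≤ 4 * Nat.card N) :
    ∃ c ∈ P, Nat.card P ≤ 2 * Nat.card (adj N c) := by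
  have : (N.subgroupOf P).Normal := ⟨fun n hn' p => hn p p.2 n hn'⟩
  have cN : Nat.card (N.subgroupOf P) = Nat.card N :=
    Nat.card_congr (subgroupOfEquivOfLe hN).toEquiv
  have key : ∀ K : Subgroup (P ⧸ N.subgroupOf P),
      (Subtype.val '' (QuotientGroup.mk ⁻¹' (K : Set (P ⧸ N.subgroupOf P)))).ncard =
        Nat.card N * Nat.card K := fun K => by
    rw [Set.ncard_image_of_injective _ Subtype.val_injective, ← Nat.card_coe_set_eq,
      QuotientGroup.card_preimage_mk, cN]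
    rfl
  obtain ⟨c, hc⟩ := maxcl (hP.to_quotient (N.subgroupOf P)) (x := QuotientGroup.mk ⟨x, hx⟩)
    (by rw [← QuotientGroup.mk_mul, QuotientGroup.eq_one_iff]; exact xx)
    (fun e => x1 ((QuotientGroup.eq_one_iff (⟨x, hx⟩ : P)).1 e)) (by
      refine Nat.le_of_mul_le_mul_left ?_ (Nat.card_pos (α := N))
      rw [← key, mul_comm]
      refine (Set.ncard_le_ncard ?_).trans h
      rintro _ ⟨p, hp, rfl⟩
      have := QuotientGroup.eq.1 (show QuotientGroup.mk (s := N.subgroupOf P) ⟨x, hx⟩ =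
        QuotientGroup.mk (cj p ⟨x, hx⟩) from (mem_cen.1 hp).symm)
      exact ⟨p.2, this⟩)
  obtain ⟨c, rfl⟩ := QuotientGroup.mk_surjective c
  refine ⟨c, c.2, ?_⟩
  rw [card_eq_card_quotient_mul_card_subgroup (N.subgroupOf P), cN]
  refine (Nat.mul_le_mul_right _ hc).trans ?_
  rw [mul_assoc, ← Nat.card_zpowers, mul_comm _ (Nat.card N), ← key]
  refine Nat.mul_le_mul_left 2 (Set.ncard_le_ncard ?_)
  rintro _ ⟨p, ⟨i, hi⟩, rfl⟩
  have := QuotientGroup.eq.1 (show QuotientGroup.mk (s := N.subgroupOf P) (c ^ i) =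
    QuotientGroup.mk p from hi)
  exact (mul_mem_cancel_left (inv_mem (zpow_mem self_mem_adj i))).1 (le_adj (g := (c : G)) this)

theorem Q4B.two (h : Nat.card F = 4) : (2 : F) = 0 := by
  have := Fintype.ofFinite F
  have := FiniteField.cast_card_eq_zero F
  rw [← Nat.card_eq_fintype_card, h] at this
  exact pow_eq_zero_iff (n := 2) two_ne_zero |>.1 (by rw [← this]; norm_num)

theorem exists_omega (h : Nat.card F = 4) : ∃ ω : F, ω * ω = ω + 1 ∧ ω ≠ 0 ∧ ω ≠ 1 ∧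
    ∀ a : F, a = 0 ∨ a = 1 ∨ a = ω ∨ a = ω + 1 := by
  classical
  have := Fintype.ofFinite F
  have h2 := Q4B.two h
  rw [Nat.card_eq_fintype_card] at h
  obtain ⟨ω, -, hω⟩ := Finset.exists_mem_notMem_of_card_lt_card (s := {(0 : F), 1}) (t := Finset.univ)
    (Finset.card_le_two.trans_lt (by rw [Finset.card_univ, h]; norm_num))
  simp only [Finset.mem_insert, Finset.mem_singleton, not_or] at hω
  have h4 : ∀ a : F, a ^ 4 = a := fun a => h ▸ FiniteField.pow_card a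
  have key : ∀ a : F, a = 0 ∨ a = 1 ∨ a * a = a + 1 := fun a => by
    have : a * ((a - 1) * (a * a - (a + 1))) = 0 := by
      linear_combination h4 a + (a - a ^ 3) * h2
    simpa only [mul_eq_zero, sub_eq_zero] using this
  have hw := ((key ω).resolve_left hω.1).resolve_left hω.2
  refine ⟨ω, hw, hω.1, hω.2, fun a => (key a).imp_right (Or.imp_right fun e => ?_)⟩
  have : (a - ω) * (a - (ω + 1)) = 0 := by
    linear_combination e + hw + (1 + ω - a * ω) * h2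
  simpa only [mul_eq_zero, sub_eq_zero] using this

theorem aut_four (h : Nat.card F = 4) {τ : F ≃+* F} (h1 : τ ≠ 1) :
    (∀ a, τ a = a * a) ∧ ∀ τ' : F ≃+* F, τ' = 1 ∨ τ' = τ := by
  obtain ⟨ω, hw, h0, h1', hall⟩ := exists_omega h
  have h2 := Q4B.two h
  have key : ∀ σ : F ≃+* F, σ ≠ 1 → ∀ a, σ a = a * a := fun σ hσ => by
    have e : σ ω = ω + 1 := by
      rcases hall (σ ω) with e | e | e | e
      · exact absurd (by simpa using e) h0
      · exact absurd (by simpa using e) h1'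
      · refine absurd (RingEquiv.ext fun a => ?_) hσ
        rcases hall a with rfl | rfl | rfl | rfl <;> simp [e]
      · exact e
    intro a
    rcases hall a with rfl | rfl | rfl | rfl
    · simp
    · simp
    · rw [e, hw]
    · rw [map_add, e, map_one]; linear_combination -hw - ω * h2
  exact ⟨key τ h1, fun τ' => or_iff_not_imp_left.2 fun e =>
    RingEquiv.ext fun a => (key τ' e a).trans (key τ h1 a).symm⟩

theorem Q4B.form (X : Fr G F) {x : G} (hx : x ∈ X.T) : ∃ a, ∃ y ∈ X.T, ∃ τ : F ≃+* F,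
    x = X.v a * y ∧ ∀ M, cj y (X.φ M) = X.φ (fa τ M) := by
  obtain ⟨ρ, hρ, a, i, rfl⟩ := X.mem_T.1 hx
  exact ⟨a, ρ * X.f ^ i, mul_mem (X.R_le_T hρ) (pow_mem X.f_mem_T i), _,
    by rw [cj_eq_iff.1 (X.R_v hρ a), mul_assoc], fun M => by rw [mul_cj, X.fpow_φ, X.R_φ hρ]⟩

theorem Q4B.act_v (X : Fr G F) {y : G} {τ : F ≃+* F} (h : ∀ M, cj y (X.φ M) = X.φ (fa τ M)) (a : F) :
    cj y (X.v a) = X.v (τ a) := by rw [Hyp.v, h, fa_uu]; rfl

theorem Q4B.ττ (h : Nat.card F = 4) (τ : F ≃+* F) : τ * τ = 1 := by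
  by_cases e : τ = 1
  · rw [e, mul_one]
  · exact ((aut_four h e).2 _).resolve_right fun d => e (mul_eq_left.1 d)

theorem Q4B.sq (X : Fr G F) (h4 : Nat.card F = 4) {y : G} {τ : F ≃+* F} {a : F}
    (h : ∀ M, cj y (X.φ M) = X.φ (fa τ M)) (e : X.v a * y * (X.v a * y) = 1) :
    a + τ a = 0 ∧ y * y = 1 := by
  have e1 : X.v (a + τ a) * (y * y) = 1 := by
    rw [X.v_add, ← Q4B.act_v X h, ← e]; simp only [cj, mul_assoc, inv_mul_cancel_left]
  have e2 : X.v (a + τ a) = 1 := X.cen_φ fun N => by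
    rw [show X.φ (uu (a + τ a)) = (y * y)⁻¹ from eq_inv_of_mul_eq_one_left e1, inv_cj_eq, mul_cj, h, h,
      ← fa_mul, Q4B.ττ h4, fa_one]
  exact ⟨X.v_eq_one.1 e2, by rwa [e2, one_mul] at e1⟩

theorem Fr.exists_q4 (X : Fr G F) (h : Nat.card F = 4) (h2 : X.Out) : ∃ τ e, X.Q4 τ e := by
  obtain ⟨x, hx, xx, b, hb⟩ := h2
  obtain ⟨a, y, hy, τ, rfl, e⟩ := Q4B.form X hx
  exact ⟨τ, y, h, fun d => hb (by rw [mul_cj, Q4B.act_v X e, X.v_comm, d]; rfl),
    (Q4B.sq X h e xx).2, hy, e⟩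

namespace Fr.Q4

variable {X : Fr G F} {τ : F ≃+* F} {e : G} (D : X.Q4 τ e)
include D

theorem e_v (a : F) : cj e (X.v a) = X.v (a * a) := by
  rw [Q4B.act_v X D.eφ, (aut_four D.four D.τ1).1]
theorem e_t : cj e X.t = X.t := X.T_t D.eT
theorem e_R {ρ : G} (h : ρ ∈ X.R) : cj e ρ ∈ X.R := by
  obtain ⟨ρ', hρ, a, i, rfl⟩ := X.mem_T.1 D.eT
  rw [mul_cj, mul_cj, cj_comm.1 (X.R_v (X.fpow_R i h) a)]
  exact cj_mem hρ (X.fpow_R i h)
theorem ncen : ¬ ∀ a, cj e (X.v a) = X.v a := fun h =>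
  D.τ1 (RingEquiv.ext fun a => X.v_inj ((Q4B.act_v X D.eφ a).symm.trans (h a)))
theorem e_A0 : e ∉ X.A0 := fun h => D.ncen fun a => by
  obtain ⟨b, e⟩ := X.mem_V.1 (X.A0_T h D.eT)
  rw [e, X.v_comm]
theorem iT : Idx (X.V ⊔ X.R) X.T e := by
  refine ⟨X.VR_le_T, D.eT, fun h => D.ncen fun a => ?_, fun x hx => ?_⟩
  · obtain ⟨ρ, hρ, b, e⟩ := X.mem_VR.1 h
    rw [e, mul_cj, X.v_comm, X.R_v hρ]
  · obtain ⟨i, hi⟩ := X.T_act hx
    refine ((aut_four D.four D.τ1).2 (X.σ ^ i)).imp (fun d => X.cen_T hx fun a => by rw [hi, d]; rfl)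
      fun d => X.cen_T (mul_mem (inv_mem D.eT) hx) fun a => ?_
    rw [mul_cj, hi, d, ← Q4B.act_v X D.eφ, inv_cj_cj]
theorem card_T : Nat.card X.T = 8 * Nat.card X.R := by
  have : X.σ ≠ 1 := fun h => D.ncen fun a => by
    obtain ⟨i, hi⟩ := X.T_act D.eT
    rw [hi, h, one_pow]; rfl
  rw [X.card_T, D.four, orderOf_eq_prime (p := 2) (by rw [pow_two]; exact Q4B.ττ D.four _) this]
  ring
theorem tmul : X.Q4 τ (X.t * e) :=
  ⟨D.four, D.τ1, by rw [mul_assoc, ← mul_assoc e, cj_eq_iff.1 D.e_t, mul_assoc, D.ee, mul_one, X.tt],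
    mul_mem (X.R_le_T X.tR) D.eT, fun M => by rw [mul_cj, D.eφ, X.tφ]⟩
theorem idem {a : F} (h : a * a = a) : a = 0 ∨ a = 1 :=
  (mul_eq_zero.1 (by linear_combination h : a * (a - 1) = 0)).imp_right sub_eq_zero.1
/-- the involutions of `T` -/
theorem invol {x : G} (hx : x ∈ X.T) (xx : x * x = 1) :
    x ∈ X.E ∨ X.Q4 τ x ∨ X.Q4 τ (X.v 1 * x) := by
  obtain ⟨a, y, hy, τ', rfl, d⟩ := Q4B.form X hx
  rcases (aut_four D.four D.τ1).2 τ' with rfl | rfl
  · exact Or.inl (X.VR_inv (X.cen_T hx fun b => by rw [mul_cj, Q4B.act_v X d, X.v_comm]; rfl) xx)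
  · obtain ⟨h1, h2⟩ := Q4B.sq X D.four d xx
    rw [(aut_four D.four D.τ1).1] at h1
    rcases D.idem (a := a) (by linear_combination h1 - a * X.char) with rfl | rfl
    · exact Or.inr (Or.inl (by rw [X.v_zero, one_mul]; exact ⟨D.four, D.τ1, h2, hy, d⟩))
    · exact Or.inr (Or.inr (by rw [← mul_assoc, X.v_sq, one_mul]; exact ⟨D.four, D.τ1, h2, hy, d⟩))
theorem v_e (a : F) : X.v a * e = e * X.v (a * a) := by
  rw [← D.e_v, cj, inv_eq_of_mul_eq_one_right D.ee, ← mul_assoc, ← mul_assoc, D.ee, one_mul]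
theorem ez : ∃ a, cj (X.v a) e = e * X.v 1 := by
  obtain ⟨ω, hw, -⟩ := exists_omega D.four
  exact ⟨ω, by
    rw [cj, X.v_inv, D.v_e, mul_assoc, ← X.v_add, show ω * ω + ω = 1 by linear_combination hw + ω * X.char]⟩
theorem T_z {x : G} (hx : x ∈ X.T) : cj x (X.v 1) = X.v 1 := by
  obtain ⟨i, hi⟩ := X.T_act hx
  rw [hi, map_one]
theorem iZ : Idx (zpowers (X.v 1)) (adj (zpowers (X.v 1)) X.t) X.t :=
  idx_adj (fun h => X.t_A0 (X.V_le_A0 (zpowers_le.2 (X.v_mem_V 1) h)))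
    (fun k hk => by rwa [X.E_comm self_mem_adj (le_adj (zpowers_le.2 (X.v_mem_V 1) hk))])
    (X.tt ▸ one_mem _)
theorem iB : Idx (adj (zpowers (X.v 1)) X.t) (closure {X.t, X.v 1, e}) e := by
  have : closure {X.t, X.v 1, e} = adj (adj (zpowers (X.v 1)) X.t) e := le_antisymm
    ((closure_le _).2 (by
      rintro _ (rfl | rfl | rfl)
      exacts [le_adj self_mem_adj, le_adj (le_adj (mem_zpowers _)), self_mem_adj]))
    (adj_le (adj_le (zpowers_le.2 (subset_closure (by simp))) (subset_closure (by simp)))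
      (subset_closure (by simp)))
  rw [this]
  exact idx_adj (fun h => D.iT.nmem (adj_le (zpowers_le.2 (mem_sup_left (X.v_mem_V 1)))
    (mem_sup_right X.tR) h)) (adj_le_comap (fun k hk => by
      rcases (Q4B.mem_zp (X.v_sq 1)).1 hk with rfl | rfl
      exacts [(cj_one e).symm ▸ one_mem _, (D.T_z D.eT).symm ▸ le_adj hk]) (D.e_t.symm ▸ self_mem_adj))
    (D.ee ▸ one_mem _)
theorem mem_B {x : G} : x ∈ closure {X.t, X.v 1, e} ↔ x = 1 ∨ x = X.t ∨ x = X.v 1 ∨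
    x = X.t * X.v 1 ∨ x = e ∨ x = X.t * e ∨ x = e * X.v 1 ∨ x = X.t * (e * X.v 1) := by
  have m : ∀ {y}, y ∈ ({X.t, X.v 1, e} : Set G) → y ∈ closure ({X.t, X.v 1, e} : Set G) :=
    fun h => subset_closure h
  have h1 := m (Or.inl rfl)
  have h2 := m (Or.inr (Or.inl rfl))
  have h3 := m (Or.inr (Or.inr rfl))
  have key : ∀ y ∈ adj (zpowers (X.v 1)) X.t, y = 1 ∨ y = X.t ∨ y = X.v 1 ∨ y = X.t * X.v 1 :=
    fun y hy => by
      rcases D.iZ.cases hy with d | ⟨k, d, rfl⟩ <;>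
        rcases (Q4B.mem_zp (X.v_sq 1)).1 d with rfl | rfl <;> simp
  refine ⟨fun h => ?_, ?_⟩
  · rcases D.iB.cases h with d | ⟨k, d, rfl⟩ <;> rcases key _ d with rfl | rfl | rfl | rfl <;>
      simp [← mul_assoc, cj_eq_iff.1 D.e_t]
  · rintro (rfl | rfl | rfl | rfl | rfl | rfl | rfl | rfl)
    exacts [one_mem _, h1, h2, mul_mem h1 h2, h3, mul_mem h1 h3, mul_mem h3 h2,
      mul_mem h1 (mul_mem h3 h2)]
theorem card_B : Nat.card (closure {X.t, X.v 1, e}) = 8 := by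
  rw [D.iB.card, D.iZ.card, Nat.card_zpowers,
    orderOf_eq_prime (p := 2) (by rw [pow_two, X.v_sq]) (mt X.v_eq_one.1 one_ne_zero)]
theorem quot {u : G} (D' : X.Q4 τ u) : e⁻¹ * u ∈ X.R := by
  rw [← X.Rsyl.eq_of_le (X := X.K ⊓ X.T) (pg_le X.pgT inf_le_right) inf_le_left
    (le_inf X.R_le_K X.R_le_T)]
  have := mul_mem (inv_mem D.eT) D'.eT
  exact ⟨X.mem_K.2 ⟨X.T_t this, fun M => by rw [mul_cj, D'.eφ, inv_cj_eq, D.eφ]⟩, this⟩
/-- the elementary abelian subgroups of order `8` when `R = ⟨t⟩` -/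
theorem eight (h : ∀ ρ ∈ X.R, ρ = 1 ∨ ρ = X.t) {B : Subgroup G} (hB : B ≤ X.T)
    (h2 : ∀ x ∈ B, x * x = 1) (h8 : 8 ≤ Nat.card B) :
    B = X.E ∨ B = closure {X.t, X.v 1, e} := by
  by_cases hE : B ≤ X.E
  · exact Or.inl (eq_of_le_of_card_ge hE (by rwa [X.card_E, D.four]))
  obtain ⟨x, hx, hxE⟩ := SetLike.not_le_iff_exists.1 hE
  have h1 : X.t ∈ closure {X.t, X.v 1, e} := subset_closure (Or.inl rfl)
  have hz : X.v 1 ∈ closure {X.t, X.v 1, e} := subset_closure (Or.inr (Or.inl rfl))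
  have k1 : ∀ u, X.Q4 τ u → u ∈ closure {X.t, X.v 1, e} := fun u D' =>
    (mul_mem_cancel_left (inv_mem D.iB.mem)).1 ((h _ (D.quot D')).elim (· ▸ one_mem _) (· ▸ h1))
  have k2 : ∀ a, cj x (X.v a) = X.v (a * a) := fun a => by
    rcases (D.invol (hB hx) (h2 x hx)).resolve_left hxE with D' | D'
    · exact D'.e_v a
    · exact cj_inj (X.v 1) (by rw [← mul_cj, D'.e_v, X.v_comm])
  refine Or.inr (eq_of_le_of_card_ge (fun y hy => ?_) (by rwa [D.card_B]))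
  rcases D.invol (hB hy) (h2 y hy) with d | d | d
  · have c := cj_eq_iff.2 (comm_of_sq (h2 x hx) (h2 y hy) (h2 _ (mul_mem hx hy)))
    have k3 : ∀ a, a * a = a → X.v a ∈ closure {X.t, X.v 1, e} := fun a ha =>
      (D.idem ha).elim (fun d => by rw [d, X.v_zero]; exact one_mem _) (· ▸ hz)
    obtain ⟨a, rfl | rfl⟩ := X.mem_E.1 d
    · exact k3 a (X.v_inj ((k2 a).symm.trans c))
    · rw [cj_mul, X.T_t (hB hx), k2] at c
      exact mul_mem h1 (k3 a (X.v_inj (mul_left_cancel c)))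
  · exact k1 y d
  · exact (mul_mem_cancel_left hz).1 (k1 _ d)
/-- the structure of `C(t)` -/
theorem cen_t {c : G} (hc : cj c X.t = X.t) :
    ∃ M, ∃ κ ∈ X.K, c = X.φ M * κ ∨ c = X.φ M * κ * e := by
  obtain ⟨M, τ', h⟩ := X.aut c hc
  have h1 : cj (X.φ M)⁻¹ X.t = X.t := inv_cj_eq.2 (cj_comm.1 (X.tφ M))
  rcases (aut_four D.four D.τ1).2 τ' with rfl | rfl
  · exact ⟨M, (X.φ M)⁻¹ * c, X.mem_K.2 ⟨by rw [mul_cj, hc, h1], fun N => by
      rw [mul_cj, h, fa_one, X.φ_cj, inv_cj_cj]⟩, Or.inl (by simp)⟩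
  · exact ⟨M, (X.φ M)⁻¹ * c * e, X.mem_K.2 ⟨by rw [mul_cj, mul_cj, D.e_t, hc, h1], fun N => by
      rw [mul_cj, mul_cj, D.eφ, h, ← fa_mul, Q4B.ττ D.four, fa_one, X.φ_cj, inv_cj_cj]⟩,
      Or.inr (by simp [mul_assoc, D.ee])⟩
/-- `K ∩ L` has odd order when `t ∉ L` -/
theorem K_odd (h : X.t ∉ X.L) {κ : G} (hκ : κ ∈ X.K) (hL : κ ∈ X.L) : Odd (orderOf κ) := by
  refine Nat.not_even_iff_odd.1 fun ⟨m, hm⟩ => ?_
  have h0 := orderOf_pos κ
  have h1 : κ ^ m * κ ^ m = 1 := by rw [← pow_add, ← hm, pow_orderOf_eq_one]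
  obtain ⟨c, hc, d⟩ := X.Rsyl.conj (pg_zpowers (x := κ ^ m) (k := 1) (by simpa [pow_two] using h1))
    (zpowers_le.2 (pow_mem hκ m))
  rcases X.R_inv (mem_cm.1 (d (mem_zpowers _))) (cj_sq h1) with d | d
  · exact pow_ne_one_of_lt_orderOf (by omega) (by omega) (cj_eq_one.1 d)
  · exact h ((X.L_cj _).2 (pow_mem hL m) |> (d ▸ ·))
/-- `V⟨e⟩` is dihedral of order `8` -/
theorem dih : Nonempty (adj X.V e ≃* DihedralGroup 4) := by
  obtain ⟨ω, hw, h0, h1, -⟩ := exists_omega D.four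
  have I : Idx X.V (adj X.V e) e := idx_adj (fun h => D.e_A0 (X.V_le_A0 h)) (fun k hk => by
    obtain ⟨a, rfl⟩ := X.mem_V.1 hk
    exact D.e_v a ▸ X.v_mem_V _) (D.ee ▸ one_mem _)
  let r : adj X.V e := ⟨e * X.v ω, mul_mem I.mem (I.le (X.v_mem_V ω))⟩
  have r2 : e * X.v ω * (e * X.v ω) = X.v 1 := by
    rw [mul_assoc, ← mul_assoc (X.v ω), D.v_e, ← mul_assoc, ← mul_assoc, D.ee, one_mul, ← X.v_add,
      show ω * ω + ω = 1 by linear_combination hw + ω * X.char]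
  have r3 : (r ^ 2 : adj X.V e) = X.v 1 := by rw [pow_two]; exact r2
  have o4 : orderOf r = 4 := orderOf_eq_prime_pow (p := 2) (n := 1)
    (fun d => one_ne_zero (X.v_eq_one.1 (r3.symm.trans (congrArg Subtype.val d))))
    (Subtype.ext (by rw [pow_two, pow_mul, pow_two, coe_mul, r3, X.v_sq, coe_one]))
  rw [← o4]
  refine H29.dihedral_of_inverted (s := ⟨e, I.mem⟩) (fun d => by simp [d] at o4) (fun d => ?_)
    (Subtype.ext D.ee) (Subtype.ext ?_) (by rw [I.card, X.card_V, D.four, o4])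
  · obtain ⟨n, d⟩ := d
    have c : Commute (⟨e, I.mem⟩ : adj X.V e) r := d ▸ (Commute.refl r).zpow_left n
    have c' : e * (e * X.v ω) = e * X.v ω * e := congrArg Subtype.val c
    rw [mul_assoc, D.v_e] at c'
    exact (D.idem (X.v_inj (mul_left_cancel (mul_left_cancel c'))).symm).elim h0 h1
  · change e * (e * X.v ω) * (e * (e * X.v ω)) = 1
    rw [← mul_assoc e e, D.ee, one_mul, X.v_sq]

end Fr.Q4

end H25.L2
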