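import Cfsg.Agent.Lib.L2S.Q4N2

/-!
The case `q = 4`, `R = ⟨t⟩`, `N(T)` normalises `E`.
-/

set_option autoImplicit false
set_option linter.unusedSectionVars false

namespace H25.L2

open Subgroup H4.YM H4.TL Matrix MatrixGroups GoodAux

variable {G : Type*} [Group G] [Finite G] {F : Type*} [Field F] [Finite F]

namespace QN

variable {X : Fr G F}

omit [Finite G] in
theorem sqmul {a b : G} (ha : a * a = 1) (hb : b * b = 1) (h : cj a b = b) : a * b * (a * b) = 1 := by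
  rw [mul_assoc, ← mul_assoc b, ← cj_eq_iff.1 h, mul_assoc, hb, mul_one, ha]

theorem mul_mem_of_card {A U : Subgroup G} (hA : A ≤ U) (h : Nat.card U ≤ 2 * Nat.card A) {x y : G}
    (hx : x ∈ U) (hy : y ∈ U) (h1 : x ∉ A) (h2 : y ∉ A) : x * y ∈ A := by
  have h3 := (A.subgroupOf U).card_mul_index
  rw [Nat.card_congr (subgroupOfEquivOfLe hA).toEquiv] at h3
  have h4 : (A.subgroupOf U).index ≤ 2 := by
    rw [← h3, mul_comm 2] at h
    exact Nat.le_of_mul_le_mul_left h Nat.card_pos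
  have h5 : (A.subgroupOf U).index ≠ 1 := fun e =>
    h1 ((index_eq_one.1 e).ge (mem_top (⟨x, hx⟩ : U)))
  have h6 := (A.subgroupOf U).index_ne_zero_of_finite
  exact (mul_mem_iff_of_index_two (H := A.subgroupOf U) (by omega) (a := ⟨x, hx⟩) (b := ⟨y, hy⟩)).2
    ⟨fun a => absurd a h1, fun a => absurd a h2⟩

theorem cyc_mod {V : Subgroup G} {c p q : G} (hc : ∀ u ∈ V, cj c u = u) (hp : p ∈ adj V c)
    (hq : q ∈ adj V c) (p1 : p ∉ V) (q1 : q ∉ V) (p2 : p * p ∈ V) (q2 : q * q ∈ V) : p * q ∈ V := by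
  have hn : adj V c ≤ normalizer (V : Set G) :=
    adj_le le_normalizer (mem_norm.2 fun u hu => (hc u hu).symm ▸ hu)
  have : (V.subgroupOf (adj V c)).Normal := (normal_subgroupOf_iff_le_normalizer le_adj).2 hn
  set π := QuotientGroup.mk' (V.subgroupOf (adj V c)) with hπ
  have h1 : ∀ x : adj V c, π x = 1 ↔ (x : G) ∈ V := fun x => QuotientGroup.eq_one_iff x
  have : IsCyclic (adj V c ⧸ V.subgroupOf (adj V c)) := ⟨π ⟨c, self_mem_adj⟩, fun y => by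
    obtain ⟨⟨x, hx⟩, rfl⟩ := QuotientGroup.mk'_surjective _ y
    have : adj V c ≤ ((zpowers (π ⟨c, self_mem_adj⟩)).comap π).map (adj V c).subtype :=
      adj_le (fun u hu => ⟨⟨u, le_adj hu⟩, by
        rw [SetLike.mem_coe, mem_comap, (h1 ⟨u, le_adj hu⟩).2 hu]; exact one_mem _, rfl⟩)
        ⟨⟨c, self_mem_adj⟩, mem_zpowers _, rfl⟩
    obtain ⟨x', hx', rfl⟩ := this hx
    exact hx'⟩
  have e := Bas.cyc_inv (a := π ⟨p, hp⟩) (b := π ⟨q, hq⟩) (fun e => p1 ((h1 _).1 e))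
    (by rw [← map_mul]; exact (h1 _).2 p2) (fun e => q1 ((h1 _).1 e))
    (by rw [← map_mul]; exact (h1 _).2 q2)
  exact (h1 (⟨p, hp⟩ * ⟨q, hq⟩)).1 (by rw [map_mul, e, ← map_mul]; exact (h1 _).2 q2)

theorem mem_CV {c : G} : c ∈ centralizer (X.V : Set G) ↔ ∀ a, cj c (X.v a) = X.v a :=
  ⟨fun h a => cj_eq_iff.2 (h _ (X.v_mem_V a)).symm, fun h u hu => by
    obtain ⟨a, rfl⟩ := X.mem_V.1 hu
    exact (cj_eq_iff.1 (h a)).symm⟩

theorem no_cyc {R1 U : Subgroup G} (W : Tw X R1) (h4 : Nat.card F = 4) (hU : R1 ≤ U) {c : G}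
    (hc : c ∈ U) (hV : ∀ u ∈ X.V, cj c u = u) : ¬ Nat.card U ≤ 2 * Nat.card (adj X.V c) := by
  intro hle
  obtain ⟨ω, -, w0, w1, -⟩ := exists_omega h4
  have h2 := X.char
  have hA : adj X.V c ≤ U := adj_le (W.VR.trans hU) hc
  have ht := W.ER X.iE.mem
  have bt : cj X.t X.t = X.t * X.v 0 := by rw [X.v_zero, mul_one, cj_eq_iff.2 rfl]
  have nV : ∀ {r : G} {β : F}, cj r X.t = X.t * X.v β → β ≠ 0 → r ∉ X.V := fun {r β} e hβ hr => by
    obtain ⟨a, rfl⟩ := X.mem_V.1 hr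
    rw [X.v_t, eq_comm, mul_eq_left, X.v_eq_one] at e
    exact hβ e
  obtain ⟨y1, h1, b1⟩ := W.surj 1
  obtain ⟨y2, h2', b2⟩ := W.surj ω
  have b3 := b_mul (W.cV _ h1) b1 b2
  have w2 : 1 + ω ≠ 0 := fun e => w1 (by linear_combination e - h2)
  by_cases htA : X.t ∈ adj X.V c
  · have key : ∀ q ∈ R1, ∀ β, cj q X.t = X.t * X.v β → β ≠ 0 → q ∉ adj X.V c := fun q hq β e hβ hA =>
      nV (b_mul (W.cV _ ht) bt e) (by rwa [zero_add])
        (cyc_mod hV htA hA t_V (nV e hβ) (W.sq _ ht) (W.sq _ hq))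
    exact key _ (mul_mem h1 h2') _ b3 w2 (mul_mem_of_card hA hle (hU h1) (hU h2')
      (key _ h1 _ b1 one_ne_zero) (key _ h2' _ b2 w0))
  · have key : ∀ y ∈ R1, ∀ β, cj y X.t = X.t * X.v β → ∃ p ∈ R1, p ∈ adj X.V c ∧
        cj p X.t = X.t * X.v β := fun y hy β e => by
      by_cases hA' : y ∈ adj X.V c
      · exact ⟨y, hy, hA', e⟩
      · exact ⟨_, mul_mem ht hy, mul_mem_of_card hA hle (hU ht) (hU hy) htA hA', by
          rw [b_mul (W.cV _ ht) bt e, zero_add]⟩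
    obtain ⟨p, p1, p2, p3⟩ := key _ h1 _ b1
    obtain ⟨q, q1, q2, q3⟩ := key _ h2' _ b2
    exact nV (b_mul (W.cV _ p1) p3 q3) w2
      (cyc_mod hV p2 q2 (nV p3 one_ne_zero) (nV q3 w0) (W.sq _ p1) (W.sq _ q1))

variable (h : ∀ ρ ∈ X.R, ρ = 1 ∨ ρ = X.t) {τ : F ≃+* F} {e : G} (D : X.Q4 τ e)
  (nV : ∀ a, ¬ X.Ω (X.v a))
include D

theorem B_sq {u : G} (hu : u ∈ closure {X.t, X.v 1, e}) : u * u = 1 := by
  have h1 : cj e (X.v 1) = X.v 1 := by rw [D.e_v, one_mul]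
  have h2 := sqmul D.ee (X.v_sq 1) h1
  have h3 : cj X.t e = e := cj_comm.1 D.e_t
  rcases D.mem_B.1 hu with rfl | rfl | rfl | rfl | rfl | rfl | rfl | rfl
  exacts [mul_one 1, X.tt, X.v_sq 1, sqmul X.tt (X.v_sq 1) (X.t_v 1), D.ee, sqmul X.tt D.ee h3, h2,
    sqmul X.tt h2 (by rw [cj_mul, h3, X.t_v])]

include nV

omit D in
theorem Ω_E {u : G} (hu : u ∈ X.E) (hΩ : X.Ω u) : ∃ a, u = X.t * X.v a := by
  obtain ⟨a, e | e⟩ := X.mem_E.1 hu
  · exact absurd (e ▸ hΩ) (nV a)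
  · exact ⟨a, e⟩

theorem not_conj {R1 : Subgroup G} (W : Tw X R1) {k : G} (h1 : cj k X.t ∈ X.E) (h2 : cj k e ∈ X.E) :
    False := by
  obtain ⟨β, hβ⟩ := Ω_E nV h1 ((X.Ω_cj k).2 X.Ω_t)
  obtain ⟨r, hr, e1⟩ := W.surj β
  have e2 : cj (r⁻¹ * k) X.t = X.t := by rw [mul_cj, hβ, ← e1, inv_cj_cj]
  have e3 := nrmE (fun a => inv_cj_eq.2 (W.cV r hr a)) (b_inv (W.cV r hr) e1) h2
  rw [← mul_cj] at e3
  have e4 := fun a => X.C_A0 (inv_cj_eq.2 e2) (X.V_le_A0 (X.v_mem_V a))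
  obtain ⟨a, e5 | e5⟩ := X.mem_E.1 e3
  · exact D.e_A0 (inv_cj_eq.2 e5 ▸ e4 a)
  · have e6 : cj (r⁻¹ * k) (X.t * e) = X.v a := by rw [cj_mul, e2, e5, X.ttu]
    exact D.tmul.e_A0 (inv_cj_eq.2 e6 ▸ e4 a)

include h

theorem core {R1 Y U : Subgroup G} (W : Yw X R1 Y) (hU : Syl U (centralizer (X.V : Set G)))
    (hR : R1 ≤ U) {g : G} (g1 : ∀ a, cj g (X.v a) ∈ closure {X.t, X.v 1, e})
    (g2 : cj g⁻¹ (X.v 1) ∈ X.V) (g3 : cj g⁻¹ e ∈ X.V) (g4 : cj g⁻¹ X.t ∈ U) :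
    X.Z4 τ (X.t * e) Y := by
  have cU : ∀ p ∈ U, ∀ a, cj p (X.v a) = X.v a := fun p hp => mem_CV.1 (hU.le hp)
  have ne : ¬ X.Ω e := fun hΩ => by
    obtain ⟨a, e1⟩ := X.mem_V.1 g3
    exact nV a (e1 ▸ (X.Ω_cj _).2 hΩ)
  have Ω' := (X.Ω_cj g⁻¹).2 X.Ω_t
  obtain ⟨s, hs, sΩ, sE⟩ : ∃ s ∈ R1, X.Ω s ∧ s ∉ X.E := by
    by_contra! hc
    have hS : Syl R1 U := by
      by_contra hS
      obtain ⟨n, hn, n1, n2, -⟩ := exists_grow W.toTw.pg hR hS
      obtain ⟨β, hβ⟩ := Ω_E nV (hc _ (mem_norm.1 n1 _ (W.ER X.iE.mem)) ((X.Ω_cj n).2 X.Ω_t))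
        ((X.Ω_cj n).2 X.Ω_t)
      obtain ⟨r, hr, e1⟩ := W.surj β
      have h1 := mul_mem (inv_mem (hR hr)) hn
      obtain ⟨j, hj⟩ := pg_pow hU.pg h1
      exact n2 ((R1.mul_mem_cancel_left (inv_mem hr)).1 (W.ER (cenE_two h
        (by rw [mul_cj, hβ, ← e1, inv_cj_cj]) (cU _ h1) hj)))
    rw [hS.eq_of_le hU.pg le_rfl hR] at g4
    exact not_conj D nV W.toTw (hc _ g4 Ω') (X.iE.le g3)
  have ty : ∀ y, X.t * y * (X.t * y) = cj X.t y * y := fun y => by rw [cj, X.tinv]; group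
  have om : ∀ y ∈ Y, y * y = 1 → y ∈ X.V := by
    refine (W.el_or h).resolve_left fun hc => ?_
    rcases W.dich s hs with h1 | h1
    · obtain ⟨c, -, hc'⟩ := X.sylΩ sΩ (pg_of_sq hc) fun y hy => cj_eq_iff.2 (W.comm h hy h1)
      have h2 := card_cm c⁻¹ Y
      rw [W.card h D.four] at h2
      rcases D.eight h (B := cm c⁻¹ Y) (fun x hx => by
          have := mem_cm.1 (hc' (mem_cm.1 hx))
          rwa [cj_inv_cj] at this) (fun x hx => by
          rw [← cj_inv_cj c⁻¹ x]; exact cj_sq (hc _ (mem_cm.1 hx))) (by omega) with e1 | e1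
      · rw [e1, X.card_E, D.four] at h2; omega
      · rw [e1, D.card_B] at h2; omega
    · have h2 := ty (X.t * s)
      rw [X.ttu, X.sqΩ sΩ] at h2
      have h3 : cj X.t (X.t * s) = X.t * s :=
        mul_right_cancel (h2.symm.trans (hc _ h1).symm)
      exact sE ((X.E.mul_mem_cancel_left X.iE.mem).1 (X.iE.le (W.memV h h1 (cj_comm.1 h3))))
  have inv : ∀ y ∈ Y, cj X.t y = y⁻¹ := by
    rcases W.dich s hs with h1 | h1
    · exact absurd (X.iE.le (om s h1 (X.sqΩ sΩ))) sE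
    · have h2 := ty (X.t * s)
      rw [X.ttu, X.sqΩ sΩ] at h2
      exact fun y hy => W.inv h h1 (fun hV => sE ((X.E.mul_mem_cancel_left X.iE.mem).1 (X.iE.le hV)))
        (eq_inv_of_mul_eq_one_left h2.symm) hy
  refine ⟨D.tmul, h, nV, ?_, W.VY, W.YL, W.card h D.four, fun y hy => W.sq y (W.YR hy), om, inv,
    fun y hy => ?_, Or.inl (by rwa [X.ttu])⟩
  · by_contra nte
    set t' := cj g⁻¹ X.t with ht'
    have hB : ∀ H : Subgroup G, t' ∈ H → X.V ≤ H → ∀ u ∈ closure {X.t, X.v 1, e}, cj g⁻¹ u ∈ H :=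
      fun H a b u hu => mem_cm.1 ((closure_le (cm g H)).2 (by
        rintro _ (rfl | rfl | rfl)
        exacts [mem_cm.2 a, mem_cm.2 (b g2), mem_cm.2 (b g3)]) hu)
    have t'V : ∀ u ∈ X.V, cj u t' = t' := fun u hu => by
      obtain ⟨a, rfl⟩ := X.mem_V.1 hu
      exact cj_comm.1 (cU _ g4 a)
    have c1 : Nat.card (U ⊓ centralizer {t'} : Subgroup G) ≤ 8 := by
      obtain ⟨c, hc, hc'⟩ := X.syl.conj (pg_cm (pg_le hU.pg (inf_le_left (b := centralizer {t'}))) g)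
        fun x hx => mem_cen.2 (by
          have := mem_cen.1 (mem_cm.1 hx).2
          rw [ht', cj_cj] at this
          exact cj_inj _ this)
      have hT : ∀ p ∈ U ⊓ centralizer {t'}, cj c⁻¹ (cj g p) ∈ X.T := fun p hp =>
        mem_cm.1 (hc' (cj_mem_cm.2 hp))
      have hB' := hB (U ⊓ centralizer {t'}) ⟨g4, mem_cen.2 (cj_eq_iff.2 rfl)⟩
        fun u hu => ⟨hR (W.toTw.VR hu), mem_cen.2 (t'V u hu)⟩
      rcases D.eight h (B := cm c⁻¹ (closure {X.t, X.v 1, e})) (fun x hx => by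
          have := hT _ (hB' _ (mem_cm.1 hx))
          rwa [cj_inv_cj, inv_inv, inv_cj_cj] at this) (fun x hx => by
          rw [← cj_inv_cj c⁻¹ x]; exact cj_sq (B_sq D (mem_cm.1 hx)))
          (by rw [card_cm, D.card_B]) with e1 | e1
      · exact (not_conj D nV W.toTw (k := c⁻¹) (e1 ▸ cj_mem_cm.2 (subset_closure (by simp)))
          (e1 ▸ cj_mem_cm.2 (subset_closure (by simp)))).elim
      · have h1 : e ∈ cm c⁻¹ (closure {X.t, X.v 1, e}) := by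
          rw [e1]; exact subset_closure (by simp)
        rw [← D.card_B, ← card_cm (c⁻¹ * g)]
        refine card_le_of_le fun x hx => ?_
        have h2 := mem_cm.1 hx
        have h3 := hT _ h2
        rw [← mul_cj, cj_inv_cj] at h3
        refine cen_e h D h3 ?_
        have h4 := mem_cen.1 (hB (centralizer {cj (c⁻¹ * g)⁻¹ x}) (mem_cen.2 (cj_comm.1 (mem_cen.1 h2.2)))
          (fun u hu => by
            obtain ⟨a, rfl⟩ := X.mem_V.1 hu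
            exact mem_cen.2 (cj_comm.1 (cU _ h2.1 a))) _ (mem_cm.1 h1))
        rw [← mul_cj g⁻¹, ← _root_.mul_inv_rev, cj_cj] at h4
        exact cj_comm.1 (cj_inj _ h4)
    have c2 : {y | y ∈ orb U t' ∧ t'⁻¹ * y ∈ X.V}.ncard ≤ 2 := by
      refine le_trans (Set.ncard_le_ncard (t := {t', cj g⁻¹ (X.t * X.v 1)}) ?_)
        ((Set.ncard_insert_le _ _).trans (by simp))
      rintro _ ⟨⟨p, -, rfl⟩, hy⟩
      obtain ⟨a, ha⟩ := X.mem_V.1 hy
      have e1 : cj g (cj p t') = X.t * cj g (X.v a) := by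
        rw [← ha, cj_mul, cj_inv, ht', cj_inv_cj, mul_inv_cancel_left]
      have e2 : X.Ω (cj g (cj p t')) := (X.Ω_cj _).2 ((X.Ω_cj _).2 Ω')
      obtain ⟨b, hb⟩ := D.ez
      have e3 : cj g (cj p t') ∈ closure {X.t, X.v 1, e} :=
        e1 ▸ mul_mem (subset_closure (by simp)) (g1 a)
      rcases D.mem_B.1 e3 with e4 | e4 | e4 | e4 | e4 | e4 | e4 | e4 <;> rw [e4] at e2
      · exact absurd e2 X.nΩ1
      · exact Or.inl (inv_cj_eq.2 e4).symm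
      · exact absurd e2 (nV 1)
      · exact Or.inr (inv_cj_eq.2 e4).symm
      · exact absurd e2 ne
      · exact absurd e2 nte
      · exact absurd ((X.Ω_cj _).1 (hb ▸ e2)) ne
      · exact absurd ((X.Ω_cj (X.v b)).1 (by rwa [cj_mul, X.v_t, hb])) nte
    obtain ⟨c, hc, hle⟩ := maxcl' hU.pg (W.toTw.VR.trans hR) (fun p hp u hu => by
        obtain ⟨a, rfl⟩ := X.mem_V.1 hu
        rwa [cU p hp]) g4 (by rw [cj_sq X.tt]; exact one_mem _) (fun hV => by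
        obtain ⟨a, e1⟩ := X.mem_V.1 hV
        exact nV a (e1 ▸ Ω')) (by
        rw [card_fibre U t' fun y => t'⁻¹ * y ∈ X.V, X.card_V, D.four]
        exact (Nat.mul_le_mul c2 c1).trans (by norm_num))
    exact no_cyc W.toTw D.four hR hc (fun u hu => by
      obtain ⟨a, rfl⟩ := X.mem_V.1 hu
      exact cU c hc a) hle
  · rcases W.dich _ (W.nrm _ (X.T_le_N1 D.tmul.eT) y (W.YR hy)) with h1 | h1
    · exact h1
    · have h2 := ty (X.t * cj (X.t * e) y)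
      rw [X.ttu, inv _ h1, inv_mul_cancel, ← cj_mul, cj_eq_one] at h2
      obtain ⟨a, rfl⟩ := X.mem_V.1 (om y hy h2)
      rw [D.tmul.e_v]
      exact W.VY (X.v_mem_V _)

end QN

open QN in
theorem Fr.Q4.nswap {X : Fr G F} {τ : F ≃+* F} {e : G} (D : X.Q4 τ e)
    (h : ∀ ρ ∈ X.R, ρ = 1 ∨ ρ = X.t) {x : G} (h1 : x ∈ normalizer (X.T : Set G)) (h2 : x ∉ X.T)
    (h3 : x * x ∈ X.T) (h4 : x ∈ normalizer (X.E : Set G)) : X.Pure ∨ ∃ s Y, X.Z4 τ s Y := by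
  obtain ⟨x1, x2, x3⟩ := first h D h1 h2 h3 h4
  have nV : ∀ a, ¬ X.Ω (X.v a) := fun a hΩ => by
    by_cases ha : a = 0
    · exact X.nΩ1 (by rwa [ha, X.v_zero] at hΩ)
    · obtain ⟨k, hk⟩ := h_tv (X := X) ha one_ne_zero
      exact x3 (hk ▸ (X.Ω_cj _).2 hΩ)
  have tV : ∀ a, X.Ω (X.t * X.v a) := fun a => by
    by_cases ha : a = 0
    · rw [ha, X.v_zero, mul_one]; exact X.Ω_t
    · obtain ⟨k, hk⟩ := h_tv (X := X) one_ne_zero ha
      rw [← hk, ← X.h_t k, ← cj_mul, X.Ω_cj, ← x1, X.Ω_cj]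
      exact X.Ω_t
  have EV : ∀ g a, cj g (X.v a) ∈ X.E → cj g (X.v a) ∈ X.V := fun g a hE => by
    obtain ⟨b, e | e⟩ := X.mem_E.1 hE
    · exact e ▸ X.v_mem_V b
    · exact absurd ((X.Ω_cj g).1 (e ▸ tV b)) (nV a)
  by_cases wc : ∀ g, (∀ a, cj g (X.v a) ∈ X.T) → ∀ a, cj g (X.v a) ∈ X.V
  · exact Or.inl ⟨h, nV, tV, wc⟩
  right
  obtain ⟨R1, W⟩ : ∃ R1, Tw X R1 := by
    obtain ⟨ω, w1, w0, w2, w4⟩ := exists_omega D.four
    have c2 := X.char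
    have key : ∀ y, cj y (X.v 1) = X.v 1 → cj y (X.v ω) = X.v ω → ∀ a, cj y (X.v a) = X.v a :=
      fun y a b c => by
        rcases w4 c with rfl | rfl | rfl | rfl
        · rw [X.v_zero, cj_one]
        · exact a
        · exact b
        · rw [X.v_add, cj_mul, a, b]
    obtain ⟨b, hb⟩ := X.mem_V.1 (EV x ω (mem_norm.1 h4 _ (v_E ω)))
    rcases w4 b with rfl | rfl | rfl | rfl
    · rw [X.v_zero, cj_eq_one, X.v_eq_one] at hb; exact absurd hb w0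
    · exact absurd (X.v_inj (cj_inj x (hb.trans x2.symm))) w2
    · exact exists_Tw h (key x x2 hb) x1
    · have e1 : cj e (X.v 1) = X.v 1 := by rw [D.e_v, one_mul]
      exact exists_Tw h (key (e * x) (by rw [mul_cj, x2, e1]) (by
        rw [mul_cj, hb, D.e_v]; congr 1; linear_combination w1 + (ω + 1) * c2))
        (by rw [mul_cj, x1, cj_mul, D.e_t, e1])
  obtain ⟨Y, W'⟩ := W.exists_Y h D.four
  obtain ⟨U, hR, hU⟩ := exists_syl W.pg (H := centralizer (X.V : Set G))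
    fun r hr => mem_CV.2 (W.cV r hr)
  push Not at wc
  obtain ⟨g0, hg0, a0, ha0⟩ := wc
  obtain ⟨c, hc, hc'⟩ := hU.conj (X := zpowers (cj g0⁻¹ X.t))
    (pg_zpowers (k := 1) (by rw [pow_one, pow_two, cj_sq X.tt])) (zpowers_le.2 (mem_CV.2 fun a => by
      rw [← inv_cj_cj g0 (X.v a), cj_cj, cj_comm.1 (X.T_t (hg0 a))]))
  obtain ⟨g, hg, ha, g4⟩ : ∃ g, (∀ a, cj g (X.v a) ∈ X.T) ∧ cj g (X.v a0) ∉ X.V ∧ cj g⁻¹ X.t ∈ U :=
    ⟨g0 * c, fun a => by rw [mul_cj, mem_CV.1 hc]; exact hg0 a, by rwa [mul_cj, mem_CV.1 hc], by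
      rw [_root_.mul_inv_rev, mul_cj]; exact mem_cm.1 (hc' (mem_zpowers _))⟩
  have mV : ∀ u ∈ cm g X.V, ∃ a, u = cj g (X.v a) := fun u hu => by
    obtain ⟨a, e⟩ := X.mem_V.1 (mem_cm.1 hu)
    exact ⟨a, (inv_cj_eq.1 e).symm⟩
  have nΩ : ∀ u ∈ cm g X.V, ¬ X.Ω u := fun u hu => by
    obtain ⟨a, rfl⟩ := mV u hu
    rw [X.Ω_cj]; exact nV a
  have tc : ∀ u ∈ cm g X.V, cj X.t u = u := fun u hu => by
    obtain ⟨a, rfl⟩ := mV u hu
    exact cj_comm.1 (X.T_t (hg a))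
  have I := idx_adj (fun e => nΩ _ e X.Ω_t) (fun u hu => (tc u hu).symm ▸ hu)
    (X.tt ▸ one_mem (cm g X.V))
  have sq : ∀ u ∈ cm g X.V, u * u = 1 := fun u hu => by
    obtain ⟨a, rfl⟩ := mV u hu
    exact cj_sq (X.v_sq a)
  have hB := (D.eight h (B := adj (cm g X.V) X.t) (adj_le (fun u hu => by
      obtain ⟨a, rfl⟩ := mV u hu
      exact hg a) (X.E_le_T X.iE.mem)) (fun u hu => by
      rcases I.cases hu with hu | ⟨k, hk, rfl⟩
      exacts [sq u hu, sqmul X.tt (sq k hk) (tc k hk)])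
      (by rw [I.card, card_cm, X.card_V, D.four])).resolve_left
    fun e => ha (EV g a0 (e ▸ I.le (cj_mem_cm.2 (X.v_mem_V a0))))
  have g1 : ∀ a, cj g (X.v a) ∈ closure {X.t, X.v 1, e} := fun a =>
    hB ▸ I.le (cj_mem_cm.2 (X.v_mem_V a))
  have g2 : cj g⁻¹ (X.v 1) ∈ X.V := by
    rcases I.dich (X.v 1) (hB ▸ subset_closure (by simp)) with e | e
    · exact mem_cm.1 e
    · exact absurd (tV 1) (nΩ _ (by rwa [X.tinv] at e))
  rcases I.dich e (hB ▸ subset_closure (by simp)) with e1 | e1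
  · exact ⟨_, Y, core h D nV W' hU hR g1 g2 (mem_cm.1 e1) g4⟩
  · refine ⟨_, Y, core h D.tmul nV W' hU hR (fun a => ?_) g2 (mem_cm.1 (by rwa [X.tinv] at e1)) g4⟩
    refine (closure_le _).2 ?_ (g1 a)
    rintro _ (rfl | rfl | rfl)
    · exact subset_closure (by simp)
    · exact subset_closure (by simp)
    · rw [SetLike.mem_coe, D.tmul.mem_B, X.ttu]; simp

end H25.L2
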