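import Cfsg.Agent.Lib.L2S.Q4B
import Cfsg.Agent.Lib.L2S.Good

/-!
The case `q = 4`, `R = ⟨t⟩`: the group `R1` of translations.
-/

set_option autoImplicit false
set_option linter.unusedSectionVars false

namespace H25.L2.QN

open Subgroup H4.YM H4.TL Matrix MatrixGroups GoodAux

variable {G : Type*} [Group G] [Finite G] {F : Type*} [Field F] [Finite F] {X : Fr G F}

theorem exists_two_pow (x : G) : ∃ k : ℕ, Odd (orderOf (x ^ 2 ^ (k + 1))) := by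
  obtain ⟨k, m, hm, e⟩ := Nat.exists_eq_two_pow_mul_odd (orderOf_pos x).ne'
  refine ⟨k, hm.of_dvd_nat (orderOf_dvd_of_pow_eq_one ?_)⟩
  rw [← pow_mul, pow_succ', mul_assoc, ← e, mul_comm, pow_mul, pow_orderOf_eq_one, one_pow]

theorem exists_odd_pow (x : G) : ∃ m : ℕ, Odd m ∧ ∃ k : ℕ, (x ^ m) ^ 2 ^ k = 1 := by
  obtain ⟨k, m, hm, e⟩ := Nat.exists_eq_two_pow_mul_odd (orderOf_pos x).ne'
  exact ⟨m, hm, k, by rw [← pow_mul, mul_comm, ← e, pow_orderOf_eq_one]⟩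

theorem v_K {a : F} (h : X.v a ∈ X.K) : a = 0 :=
  X.v_eq_one.1 (X.cen_φ (X.mem_K.1 h).2)

theorem vK {κ : G} (h : κ ∈ X.K) (a : F) : Commute (X.v a) κ := (cj_eq_iff.1 (K_v h a)).symm

theorem t_V : X.t ∉ X.V := X.iE.nmem

theorem tv_E (a : F) : X.t * X.v a ∈ X.E := X.mem_E.2 ⟨a, Or.inr rfl⟩

theorem v_E (a : F) : X.v a ∈ X.E := X.mem_E.2 ⟨a, Or.inl rfl⟩

/-- odd elements centralising `E` -/
theorem odd_K {c : G} (hc : cj c X.t = X.t) (h : ∀ a, cj c (X.v a) = X.v a) (ho : Odd (orderOf c)) :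
    c ∈ X.K := by
  obtain ⟨a, κ, hκ, rfl⟩ := X.cenV hc h
  refine mem_of_pow ho (j := 1) ?_
  rw [pow_one, (vK hκ a).mul_pow, pow_two, X.v_sq, one_mul]
  exact pow_mem hκ 2

section R2

variable (h : ∀ ρ ∈ X.R, ρ = 1 ∨ ρ = X.t)
include h

theorem K_two {κ : G} (hκ : κ ∈ X.K) {j : ℕ} (h2 : κ ^ 2 ^ j = 1) : κ = 1 ∨ κ = X.t := by
  obtain ⟨g, hg, e⟩ := X.Rsyl.conj (pg_zpowers h2) (zpowers_le.2 hκ)
  rcases h _ (mem_cm.1 (e (mem_zpowers _))) with e | e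
  · exact Or.inl (cj_eq_one.1 e)
  · exact Or.inr ((inv_cj_eq.1 e).symm.trans (X.mem_K.1 hg).1)

theorem cenE_two {c : G} (hc : cj c X.t = X.t) (h1 : ∀ a, cj c (X.v a) = X.v a) {j : ℕ}
    (h2 : c ^ 2 ^ j = 1) : c ∈ X.E := by
  obtain ⟨a, κ, hκ, rfl⟩ := X.cenV hc h1
  have h3 : κ ^ 2 ^ (j + 1) = 1 := by
    have : (X.v a * κ) ^ 2 ^ (j + 1) = 1 := by rw [pow_succ, pow_mul, h2, one_pow]
    rwa [(vK hκ a).mul_pow, pow_succ' 2, pow_mul, pow_two (X.v a), X.v_sq, one_pow, one_mul,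
      ← pow_succ'] at this
  rcases K_two h hκ h3 with rfl | rfl
  · rw [mul_one]; exact v_E a
  · exact mul_mem (v_E a) X.iE.mem

theorem VR : X.V ⊔ X.R = X.E := by
  have : X.R = zpowers X.t := le_antisymm (fun ρ hρ => by
    rcases h ρ hρ with rfl | rfl
    exacts [one_mem _, mem_zpowers _]) (zpowers_le.2 X.tR)
  rw [this]; rfl

theorem card_R : Nat.card X.R = 2 := by
  have : X.R = zpowers X.t := le_antisymm (fun ρ hρ => by
    rcases h ρ hρ with rfl | rfl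
    exacts [one_mem _, mem_zpowers _]) (zpowers_le.2 X.tR)
  rw [this, Nat.card_zpowers]
  exact orderOf_eq_prime (by rw [pow_two, X.tt]) X.t1

variable {τ : F ≃+* F} {e : G} (D : X.Q4 τ e)
include D

theorem iT : Idx X.E X.T e := VR h ▸ D.iT

theorem card_T : Nat.card X.T = 16 := by rw [D.card_T, card_R h]

theorem T_sq {y : G} (hy : y ∈ X.T) : y * y = 1 ∨ y * y = X.v 1 := by
  rcases (iT h D).cases hy with hy | ⟨k, hk, rfl⟩
  · exact Or.inl (X.E_sq hy)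
  · have e1 : e * k * (e * k) = cj e k * k := by
      rw [cj, inv_eq_of_mul_eq_one_right D.ee]; group
    have e2 : ∃ a, cj e k * k = X.v (a * a + a) := by
      obtain ⟨a, rfl | rfl⟩ := X.mem_E.1 hk
      · exact ⟨a, by rw [D.e_v, X.v_add]⟩
      · exact ⟨a, by
          rw [cj_mul, D.e_v, D.e_t, X.v_add, cj_eq_iff.1 (X.t_v (a * a)), mul_assoc, X.ttu]⟩
    obtain ⟨a, e2⟩ := e2
    obtain ⟨ω, h1, -, -, h4⟩ := exists_omega D.four
    have h2 := X.char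
    rw [e1, e2]
    rcases h4 a with rfl | rfl | rfl | rfl
    · exact Or.inl (X.v_eq_one.2 (by ring))
    · exact Or.inl (X.v_eq_one.2 (by linear_combination h2))
    · exact Or.inr (congrArg _ (by linear_combination h1 + a * h2))
    · exact Or.inr (congrArg _ (by linear_combination h1 + (2 * ω + 1) * h2))

/-- elements of `E` fixed by `e` -/
theorem fix_e {k : G} (hk : k ∈ X.E) (hc : cj e k = k) :
    k = 1 ∨ k = X.t ∨ k = X.v 1 ∨ k = X.t * X.v 1 := by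
  have key : ∀ a : F, a * a = a → a = 0 ∨ a = 1 := fun a ha => by
    have : a * (a - 1) = 0 := by linear_combination ha
    exact (mul_eq_zero.1 this).imp id sub_eq_zero.1
  obtain ⟨a, rfl | rfl⟩ := X.mem_E.1 hk
  · rw [D.e_v] at hc
    rcases key a (X.v_inj hc) with rfl | rfl
    · exact Or.inl X.v_zero
    · simp
  · rw [cj_mul, D.e_v, D.e_t] at hc
    rcases key a (X.v_inj (mul_left_cancel hc)) with rfl | rfl
    · simp [X.v_zero]
    · simp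

theorem cen_e {y : G} (hy : y ∈ X.T) (hc : cj y e = e) : y ∈ closure {X.t, X.v 1, e} := by
  have key : ∀ k ∈ X.E, cj e k = k → k ∈ closure {X.t, X.v 1, e} := fun k hk hc => by
    rw [D.mem_B]
    rcases fix_e h D hk hc with e | e | e | e <;> simp [e]
  rcases (iT h D).cases hy with hy | ⟨k, hk, rfl⟩
  · exact key y hy (cj_comm.1 hc)
  · refine mul_mem (subset_closure (by simp)) (key k hk (cj_comm.1 (cj_inj e ?_)))
    rw [← mul_cj, hc, cj_eq_iff.2 rfl]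

theorem first {x : G} (h1 : x ∈ normalizer (X.T : Set G)) (h2 : x ∉ X.T) (h3 : x * x ∈ X.T)
    (h4 : x ∈ normalizer (X.E : Set G)) :
    cj x X.t = X.t * X.v 1 ∧ cj x (X.v 1) = X.v 1 ∧ ¬ X.Ω (X.v 1) := by
  have I := idx_adj h2 (mem_norm.1 h1) h3
  have hP := pg_idx I X.pgT
  have hz : cj x (X.v 1) = X.v 1 := by
    obtain ⟨a, ha⟩ := D.ez
    have e1 : X.v a * e * (X.v a * e) = X.v 1 := by
      calc _ = cj (X.v a) e * e := by rw [cj, X.v_inv]; group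
        _ = cj e (X.v 1) := by rw [ha, cj, inv_eq_of_mul_eq_one_right D.ee]
        _ = _ := by rw [D.e_v, one_mul]
    have := T_sq h D (mem_norm.1 h1 _ (mul_mem (X.V_le_T (X.v_mem_V a)) D.eT))
    rw [← cj_mul, e1, cj_eq_one, X.v_eq_one] at this
    exact this.resolve_left one_ne_zero
  refine ⟨?_, hz, fun hΩ => ?_⟩
  · have h5 : cj e (cj x X.t) = cj x X.t := by
      have := X.T_t (mem_norm.1 (inv_mem h1) _ D.eT)
      rw [← cj_inv_cj x e, cj_cj, this]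
    rcases fix_e h D (mem_norm.1 h4 _ X.iE.mem) h5 with e | e | e | e
    · exact absurd (cj_eq_one.1 e) X.t1
    · exact absurd (X.infT hP I.le I.mem e) h2
    · exact absurd (cj_inj x (e.trans hz.symm) ▸ X.v_mem_V 1) t_V
    · exact e
  · have := X.cardΩ hΩ hP fun y hy => by
      rcases I.cases hy with hy | ⟨k, hk, rfl⟩
      · exact D.T_z hy
      · rw [mul_cj, D.T_z hk, hz]
    rw [I.card, card_T h D] at this
    omega

end R2

theorem h_tv {a b : F} (ha : a ≠ 0) (hb : b ≠ 0) : ∃ k, cj (X.h k) (X.v a) = X.v b :=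
  ⟨Units.mk0 _ (div_ne_zero hb ha), by rw [X.h_v, Units.val_mk0, div_mul_cancel₀ _ ha]⟩

/-- the translations -/
structure Tw (X : Fr G F) (R1 : Subgroup G) : Prop where
  cV : ∀ r ∈ R1, ∀ a, cj r (X.v a) = X.v a
  hb : ∀ r ∈ R1, ∃ β, cj r X.t = X.t * X.v β
  sq : ∀ r ∈ R1, r * r ∈ X.V
  ER : X.E ≤ R1
  nrm : ∀ n ∈ X.N1, ∀ r ∈ R1, cj n r ∈ R1
  surj : ∀ β, ∃ r ∈ R1, cj r X.t = X.t * X.v β

theorem b_mul {r r' : G} {β β' : F} (h0 : ∀ a, cj r (X.v a) = X.v a)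
    (h1 : cj r X.t = X.t * X.v β) (h2 : cj r' X.t = X.t * X.v β') :
    cj (r * r') X.t = X.t * X.v (β + β') := by
  rw [mul_cj, h2, cj_mul, h1, h0, X.v_add, mul_assoc]

theorem b_inv {r : G} {β : F} (h0 : ∀ a, cj r (X.v a) = X.v a)
    (h1 : cj r X.t = X.t * X.v β) : cj r⁻¹ X.t = X.t * X.v β := by
  rw [inv_cj_eq, cj_mul, h1, h0, mul_assoc, X.v_sq, mul_one]

theorem b_cj {n r : G} {β β' : F} (hn : cj n X.t = X.t) (h0 : cj n (X.v β) = X.v β')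
    (h1 : cj r X.t = X.t * X.v β) : cj (cj n r) X.t = X.t * X.v β' := by
  conv_lhs => rw [← hn]
  rw [cj_cj, h1, cj_mul, hn, h0]

theorem nrmE {r : G} {β : F} (h0 : ∀ a, cj r (X.v a) = X.v a)
    (h1 : cj r X.t = X.t * X.v β) {u : G} (hu : u ∈ X.E) : cj r u ∈ X.E := by
  obtain ⟨a, rfl | rfl⟩ := X.mem_E.1 hu
  · rw [h0]; exact hu
  · rw [cj_mul, h0, h1]; exact mul_mem (tv_E _) (v_E _)

theorem cV_cj {n r : G} (hn : n ∈ X.N1) (h0 : ∀ a, cj r (X.v a) = X.v a) (a : F) :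
    cj (cj n r) (X.v a) = X.v a := by
  obtain ⟨b, hb⟩ := V_surj (X.mem_N1.1 hn).2 a
  rw [← hb, cj_cj, h0]

theorem exists_Tw (h : ∀ ρ ∈ X.R, ρ = 1 ∨ ρ = X.t) {x : G} (x0 : ∀ a, cj x (X.v a) = X.v a)
    (x1 : cj x X.t = X.t * X.v 1) : ∃ R1, Tw X R1 := by
  have h2 := X.char
  have nO : ∀ {r : G} {β : F}, (∀ a, cj r (X.v a) = X.v a) → cj r X.t = X.t * X.v β →
      ∀ o ∈ X.K, Odd (orderOf o) → cj r o ∈ X.K := fun {r β} h0 h1 o ho hodd => by
    have key : ∀ u ∈ X.E, cj (cj r o) u = u := fun u hu => by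
      rw [← cj_inv_cj r u, cj_cj, K_E ho (nrmE (fun a => inv_cj_eq.2 (h0 a)) (b_inv h0 h1) hu)]
    exact odd_K (key _ X.iE.mem) (fun a => key _ (v_E a)) (by rwa [orderOf_cj])
  obtain ⟨R1, hR⟩ := Bas.sub_ind (fun r : G => (∀ a, cj r (X.v a) = X.v a) ∧
      (∃ β, cj r X.t = X.t * X.v β) ∧ (∀ o ∈ X.K, Odd (orderOf o) → cj r o = o) ∧ r * r ∈ X.E)
    ⟨fun a => one_cj _, ⟨0, by rw [one_cj, X.v_zero, mul_one]⟩, fun o _ _ => one_cj _,
      by rw [mul_one]; exact one_mem _⟩ (by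
    rintro r r' ⟨a1, ⟨β, a2⟩, a3, a4⟩ ⟨b1, ⟨β', b2⟩, b3, b4⟩
    refine ⟨fun a => by rw [mul_cj, b1, a1], ⟨_, b_mul a1 a2 b2⟩,
      fun o ho hodd => by rw [mul_cj, b3 o ho hodd, a3 o ho hodd], ?_⟩
    set c := r' * r * r'⁻¹ * r⁻¹ with hc
    have i1 : ∀ a, cj r⁻¹ (X.v a) = X.v a := fun a => inv_cj_eq.2 (a1 a)
    have i2 : ∀ a, cj r'⁻¹ (X.v a) = X.v a := fun a => inv_cj_eq.2 (b1 a)
    have c1 : ∀ a, cj c (X.v a) = X.v a := fun a => by
      rw [hc, mul_cj, mul_cj, mul_cj, i1, i2, a1, b1]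
    have c2 : cj c X.t = X.t := by
      have := b_mul (fun a => by rw [mul_cj, mul_cj, i2, a1, b1])
        (b_mul (fun a => by rw [mul_cj, a1, b1]) (b_mul b1 b2 a2) (b_inv b1 b2)) (b_inv a1 a2)
      rwa [show β' + β + β' + β = 0 by linear_combination (β + β') * h2, X.v_zero, mul_one] at this
    have c3 : ∀ u ∈ X.E, cj c u = u := fun u hu => by
      obtain ⟨a, rfl | rfl⟩ := X.mem_E.1 hu
      · exact c1 a
      · rw [cj_mul, c1, c2]
    have c4 : cj r' c * c ∈ X.E := by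
      have : cj r' c * c = r' * r' * cj r (r' * r')⁻¹ := by simp only [hc, cj]; group
      rw [this]
      exact mul_mem b4 (nrmE a1 a2 (inv_mem b4))
    obtain ⟨j, hj⟩ := exists_two_pow c
    have c5 : c ^ 2 ^ (j + 1) ∈ X.K :=
      odd_K (mem_cen.1 (pow_mem (mem_cen.2 c2) _)) (fun a => mem_cen.1 (pow_mem (mem_cen.2 (c1 a)) _)) hj
    have c6 : (c ^ 2 ^ (j + 1)) ^ 2 ^ 1 = 1 := by
      have e1 : cj r' c = (cj r' c * c) * c⁻¹ := by group
      have e2 : Commute (cj r' c * c) c⁻¹ := Commute.inv_right (cj_eq_iff.1 (c3 _ c4)).symm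
      have e3 := b3 _ c5 hj
      rw [cj_pow, e1, e2.mul_pow, pow_succ' 2, pow_mul, pow_two (cj r' c * c), X.E_sq c4, one_pow,
        one_mul, ← pow_succ', inv_pow] at e3
      rw [pow_one, pow_two]
      nth_rw 1 [← e3]
      exact inv_mul_cancel _
    have c7 := cenE_two h c2 c1 (eq_one_of hj c6)
    have : r * r' * (r * r') = cj r c * (r * r) * (r' * r') := by simp only [hc, cj]; group
    rw [this]
    exact mul_mem (mul_mem (nrmE a1 a2 c7) a4) b4)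
  have nrm : ∀ n ∈ X.N1, ∀ r ∈ R1, cj n r ∈ R1 := fun n hn r hr => by
    obtain ⟨a1, ⟨β, a2⟩, a3, a4⟩ := (hR r).1 hr
    obtain ⟨n1, n2⟩ := X.mem_N1.1 hn
    obtain ⟨β', hβ⟩ := X.mem_V.1 (n2 β)
    refine (hR _).2 ⟨cV_cj hn a1, ⟨_, b_cj n1 hβ a2⟩, fun o ho hodd => ?_, ?_⟩
    · rw [← cj_inv_cj n o, cj_cj, a3 _ (X.C_K (inv_cj_eq.2 n1) ho) (by rwa [orderOf_cj])]
    · rw [← cj_mul]
      obtain ⟨a, e | e⟩ := X.mem_E.1 a4 <;> rw [e]
      · exact X.iE.le (n2 a)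
      · rw [cj_mul, n1]; exact mul_mem X.iE.mem (X.iE.le (n2 a))
  have hE : X.E ≤ R1 := fun u hu => (hR u).2 ⟨fun a => X.E_comm hu (v_E a),
    ⟨0, by rw [X.E_comm hu X.iE.mem, X.v_zero, mul_one]⟩, fun o ho _ => cj_comm.1 (K_E ho hu),
    by rw [X.E_sq hu]; exact one_mem _⟩
  obtain ⟨r, hr, β, hβ, hrβ⟩ : ∃ r ∈ R1, ∃ β, β ≠ 0 ∧ cj r X.t = X.t * X.v β := by
    obtain ⟨w, w0, w1⟩ : ∃ w : F, w ≠ 0 ∧ w ≠ 1 := by
      classical
      have := Fintype.ofFinite F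
      obtain ⟨w, -, hw⟩ := Finset.exists_mem_notMem_of_card_lt_card (s := {0, 1})
        (t := (Finset.univ : Finset F)) (lt_of_le_of_lt Finset.card_le_two (by
          have := X.four
          rw [Finset.card_univ, ← Nat.card_eq_fintype_card]; omega))
      exact ⟨w, by simpa using hw⟩
    set η := X.h (Units.mk0 w w0) with hη
    set k := x * cj η x⁻¹ with hk
    have i1 : ∀ a, cj x⁻¹ (X.v a) = X.v a := fun a => inv_cj_eq.2 (x0 a)
    have k1 : ∀ a, cj k (X.v a) = X.v a := fun a => by rw [hk, mul_cj, cV_cj (X.h_N1 _) i1, x0]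
    have k2 : cj k X.t = X.t * X.v (1 + w * 1) :=
      b_mul x0 x1 (b_cj (X.h_t _) (X.h_v _ _) (b_inv x0 x1))
    have k3 : ∀ o ∈ X.K, Odd (orderOf o) → cj k o = o := fun o ho hodd => by
      have e1 : ∀ κ ∈ X.K, cj η κ = κ := fun κ hκ => by
        obtain ⟨M, hM⟩ := X.h_mem (Units.mk0 w w0)
        rw [hη, ← hM]
        exact cj_comm.1 ((X.mem_K.1 hκ).2 M)
      rw [hk, mul_cj]
      conv_lhs => rw [← e1 o ho, cj_cj, e1 _ (nO i1 (b_inv x0 x1) o ho hodd), cj_inv_cj]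
    have k4 : cj (k * k) X.t = X.t := by
      rw [b_mul k1 k2 k2, show 1 + w * 1 + (1 + w * 1) = 0 by linear_combination (1 + w) * h2,
        X.v_zero, mul_one]
    obtain ⟨m, hm, j, hj⟩ := exists_odd_pow (k * k)
    have k5 : ∀ a, cj (k ^ m) (X.v a) = X.v a := fun a => mem_cen.1 (pow_mem (mem_cen.2 (k1 a)) _)
    have k6 : cj (k ^ m) X.t = X.t * X.v (1 + w * 1) := by
      obtain ⟨i, rfl⟩ := hm
      rw [pow_succ', pow_mul, mul_cj, pow_two, mem_cen.1 (pow_mem (mem_cen.2 k4) i), k2]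
    refine ⟨k ^ m, (hR _).2 ⟨k5, ⟨_, k6⟩, fun o ho hodd =>
      mem_cen.1 (pow_mem (mem_cen.2 (k3 o ho hodd)) _), ?_⟩, _, fun e => w1 ?_, k6⟩
    · rw [← (Commute.refl k).mul_pow]
      exact cenE_two h (mem_cen.1 (pow_mem (mem_cen.2 k4) _))
        (fun a => mem_cen.1 (pow_mem (mul_mem (mem_cen.2 (k1 a)) (mem_cen.2 (k1 a))) _)) hj
    · linear_combination e - h2
  refine ⟨R1, fun r hr => ((hR r).1 hr).1, fun r hr => ((hR r).1 hr).2.1, fun r hr => ?_, hE, nrm,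
    fun γ => ?_⟩
  · obtain ⟨a1, ⟨β, a2⟩, -, a4⟩ := (hR r).1 hr
    obtain ⟨a, e | e⟩ := X.mem_E.1 a4
    · exact e ▸ X.v_mem_V a
    · have e1 : cj r (r * r) = r * r := cj_eq_iff.2 (mul_assoc _ _ _).symm
      rw [e, cj_mul, a1, a2, mul_left_inj, mul_eq_left] at e1
      rw [e1, mul_one] at a2
      have := cenE_two h a2 a1 (j := 2) (by
        rw [show 2 ^ 2 = 2 * 2 from rfl, pow_mul, pow_two, pow_two, X.E_sq a4])
      rw [X.E_sq this]; exact one_mem _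
  · by_cases hγ : γ = 0
    · exact ⟨1, one_mem _, by rw [hγ, one_cj, X.v_zero, mul_one]⟩
    · obtain ⟨k, hk⟩ := h_tv (X := X) hβ hγ
      exact ⟨_, nrm _ (X.h_N1 k) r hr, b_cj (X.h_t k) hk hrβ⟩

end H25.L2.QN
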