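import Cfsg.Agent.Lib.L2S.Q4N1

/-!
The case `q = 4`, `R = ⟨t⟩`: the subgroup `Y` of index two in `R1`.
-/

set_option autoImplicit false
set_option linter.unusedSectionVars false

namespace H25.L2.QN

open Subgroup H4.YM H4.TL Matrix MatrixGroups GoodAux

variable {G : Type*} [Group G] [Finite G] {F : Type*} [Field F] [Finite F] {X : Fr G F}

theorem swap {H V : Subgroup G} (hV : V ≤ H) (h : ∀ x ∈ H, x * x ∈ V) {a b c d : G} (ha : a ∈ H)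
    (hb : b ∈ H) (hc : c ∈ H) (e : a * (c * b) * d ∈ V) : a * (b * c) * d ∈ V := by
  have : a * (b * c) * d = cj a (b * b * ((b⁻¹ * c) * (b⁻¹ * c)) * (c⁻¹ * c⁻¹)) * (a * (c * b) * d) := by
    simp only [cj]; group
  rw [this]
  exact mul_mem (cj_mem_of_sq hV h ha (mul_mem (mul_mem (h b hb) (h _ (mul_mem (inv_mem hb) hc)))
    (h _ (inv_mem hc)))) e

/-- the complement to `t` -/
structure Yw (X : Fr G F) (R1 Y : Subgroup G) : Prop extends Tw X R1 where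
  YR : Y ≤ R1
  VY : X.V ≤ Y
  tY : X.t ∉ Y
  dich : ∀ r ∈ R1, r ∈ Y ∨ X.t * r ∈ Y
  YL : Y ≤ X.L
  hY : ∃ k : Fˣ, (k : F) * k = k + 1 ∧ (∀ a : F, a = 0 ∨ a = 1 ∨ a = k ∨ a = k + 1) ∧
    ∀ y ∈ Y, cj (X.h k) y ∈ Y

variable (h : ∀ ρ ∈ X.R, ρ = 1 ∨ ρ = X.t) {R1 Y : Subgroup G}
include h

namespace Tw

variable (W : Tw X R1)
include W

omit h in
theorem VR : X.V ≤ R1 := X.iE.le.trans W.ER

omit h in
theorem four {r : G} (hr : r ∈ R1) : r ^ 2 ^ 2 = 1 := by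
  obtain ⟨a, e⟩ := X.mem_V.1 (W.sq r hr)
  rw [show 2 ^ 2 = 2 * 2 from rfl, pow_mul, pow_two, pow_two, e, X.v_sq]

omit h in
theorem pg : IsPGroup 2 R1 := pg_of_pow fun _ hr => ⟨2, W.four hr⟩

theorem memE {r : G} (hr : r ∈ R1) (hc : cj r X.t = X.t) : r ∈ X.E :=
  cenE_two h hc (W.cV r hr) (W.four hr)

theorem exists_Y (h4 : Nat.card F = 4) : ∃ Y, Yw X R1 Y := by
  obtain ⟨ω, w1, w0, -, w4⟩ := exists_omega h4
  have h2 := X.char
  set η := X.h (Units.mk0 ω w0) with hη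
  have hn : ∀ r ∈ R1, cj η r ∈ R1 := W.nrm _ (X.h_N1 _)
  have hv : ∀ a, cj η (X.v a) = X.v (ω * a) := X.h_v _
  have ht : cj η X.t = X.t := X.h_t _
  have h3 : ∀ r, cj η (cj η (cj η r)) = r := fun r => by
    rw [← mul_cj, ← mul_cj, hη, ← map_mul, ← map_mul,
      show Units.mk0 ω w0 * Units.mk0 ω w0 * Units.mk0 ω w0 = 1 from
        Units.ext (by simp only [Units.val_mul, Units.val_mk0, Units.val_one]
                      linear_combination (ω + 1) * w1 + ω * h2), map_one, one_cj]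
  have hV : ∀ u ∈ X.V, cj η u ∈ X.V := fun u hu => by
    obtain ⟨a, rfl⟩ := X.mem_V.1 hu
    rw [hv]; exact X.v_mem_V _
  have key : ∀ r ∈ R1, ∀ r' ∈ R1, ∀ u u', r * cj η r * cj η (cj η r) = u →
      r' * cj η r' * cj η (cj η r') = u' → u * u' ∈ X.V →
      r * r' * cj η (r * r') * cj η (cj η (r * r')) ∈ X.V := by
    rintro r hr r' hr' _ _ rfl rfl e
    have a1 := hn r hr
    have a2 := hn _ a1
    have b1 := hn r' hr'
    have s1 := swap W.VR W.sq (d := cj η (cj η r')) (mul_mem hr a1) (mul_mem hr' b1) a2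
      (by simpa only [mul_assoc] using e)
    have s2 := swap W.VR W.sq (d := cj η r' * cj η (cj η r) * cj η (cj η r')) hr hr' a1
      (by simpa only [mul_assoc] using s1)
    simpa only [mul_assoc, cj_mul] using s2
  obtain ⟨Y, hY⟩ := Bas.sub_ind (fun r : G => r ∈ R1 ∧ r * cj η r * cj η (cj η r) ∈ X.V)
    ⟨one_mem _, by simp only [cj_one, mul_one]; exact one_mem _⟩
    fun r r' a b => ⟨mul_mem a.1 b.1, key r a.1 r' b.1 _ _ rfl rfl (mul_mem a.2 b.2)⟩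
  have tt : X.t * cj η X.t * cj η (cj η X.t) = X.t := by rw [ht, ht, X.tt, one_mul]
  refine ⟨Y, W, fun y hy => ((hY y).1 hy).1, fun u hu => (hY u).2
    ⟨W.VR hu, mul_mem (mul_mem hu (hV u hu)) (hV _ (hV u hu))⟩, fun e => t_V (tt ▸ ((hY _).1 e).2),
    fun r hr => ?_, fun y hy => ?_, Units.mk0 ω w0, w1, w4, fun y hy => ?_⟩
  · obtain ⟨β, hβ⟩ := W.hb r hr
    have a1 := hn r hr
    have a2 := hn _ a1
    have b1 := b_cj ht (hv β) hβ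
    have := b_mul (W.cV _ (mul_mem hr a1)) (b_mul (W.cV r hr) hβ b1) (b_cj ht (hv _) b1)
    rw [show β + ω * β + ω * (ω * β) = 0 by linear_combination β * w1 + (β + ω * β) * h2, X.v_zero,
      mul_one] at this
    obtain ⟨a, e | e⟩ := X.mem_E.1 (W.memE h (mul_mem (mul_mem hr a1) a2) this)
    · exact Or.inl ((hY r).2 ⟨hr, e ▸ X.v_mem_V a⟩)
    · exact Or.inr ((hY _).2 ⟨mul_mem (W.ER X.iE.mem) hr,
        key _ (W.ER X.iE.mem) r hr _ _ tt e (by rw [X.ttu]; exact X.v_mem_V a)⟩)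
  · have h5 := X.A0_le_L (X.V_le_A0 ((hY y).1 hy).2)
    by_cases hL : X.t ∈ X.L
    · rw [X.L_top hL]; trivial
    · rw [X.mul_mem_L hL, X.mul_mem_L hL, X.L_cj, X.L_cj, X.L_cj] at h5
      tauto
  · obtain ⟨a, b⟩ := (hY y).1 hy
    refine (hY _).2 ⟨hn y a, ?_⟩
    have := cj_mem_of_sq W.VR W.sq (inv_mem a) b
    rw [← hη, h3]
    simpa only [cj, inv_inv, mul_assoc, inv_mul_cancel_left] using this

end Tw

namespace Yw

variable (W : Yw X R1 Y)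
include W

theorem memV {y : G} (hy : y ∈ Y) (hc : cj y X.t = X.t) : y ∈ X.V := by
  obtain ⟨a, e | e⟩ := X.mem_E.1 (W.toTw.memE h (W.YR hy) hc)
  · exact e ▸ X.v_mem_V a
  · exact absurd ((Y.mul_mem_cancel_right (W.VY (X.v_mem_V a))).1 (e ▸ hy)) W.tY

theorem same {y y' : G} (hy : y ∈ Y) (hy' : y' ∈ Y) {β : F} (h1 : cj y X.t = X.t * X.v β)
    (h2 : cj y' X.t = X.t * X.v β) : ∃ a, y' = y * X.v a := by
  have c1 := W.cV y (W.YR hy)
  have := b_mul (fun a => inv_cj_eq.2 (c1 a)) (b_inv c1 h1) h2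
  rw [show β + β = 0 by linear_combination β * X.char, X.v_zero, mul_one] at this
  obtain ⟨a, e⟩ := X.mem_V.1 (W.memV h (mul_mem (inv_mem hy) hy') this)
  exact ⟨a, by rw [← e, mul_inv_cancel_left]⟩

omit h in
theorem surjY (β : F) : ∃ y ∈ Y, cj y X.t = X.t * X.v β := by
  obtain ⟨r, hr, e⟩ := W.surj β
  rcases W.dich r hr with h | h
  · exact ⟨r, h, e⟩
  · exact ⟨_, h, by rw [mul_cj, e, cj_mul, X.t_v, cj_eq_iff.2 rfl]⟩

/-- generators of `Y` -/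
theorem gen {y1 : G} (hy : y1 ∈ Y) (hV : y1 ∉ X.V) : ∃ k : Fˣ, (k : F) * k = k + 1 ∧
    cj (X.h k) y1 ∈ Y ∧ cj (X.h k) (cj (X.h k) y1) ∈ Y ∧ ∃ β, β ≠ 0 ∧ cj y1 X.t = X.t * X.v β ∧
    (∃ a, cj (X.h k) (cj (X.h k) y1) = y1 * cj (X.h k) y1 * X.v a) ∧
    ∀ y ∈ Y, ∃ a, y = X.v a ∨ y = y1 * X.v a ∨ y = cj (X.h k) y1 * X.v a ∨
      y = y1 * cj (X.h k) y1 * X.v a := by
  obtain ⟨k, k1, k2, k3⟩ := W.hY
  obtain ⟨β, hβ⟩ := W.hb _ (W.YR hy)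
  have hβ0 : β ≠ 0 := by
    rintro rfl
    exact hV (W.memV h hy (by rwa [X.v_zero, mul_one] at hβ))
  have b2 := b_cj (X.h_t k) (X.h_v k β) hβ
  have b3 := b_mul (W.cV _ (W.YR hy)) hβ b2
  refine ⟨k, k1, k3 _ hy, k3 _ (k3 _ hy), β, hβ0, hβ,
    W.same h (mul_mem hy (k3 _ hy)) (k3 _ (k3 _ hy)) b3 ?_, fun y hy' => ?_⟩
  · rw [b_cj (X.h_t k) (X.h_v k _) b2]
    congr 2; linear_combination β * k1
  · obtain ⟨γ, hγ⟩ := W.hb _ (W.YR hy')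
    obtain ⟨c, rfl⟩ : ∃ c, γ = c * β := ⟨γ / β, (div_mul_cancel₀ _ hβ0).symm⟩
    rcases k2 c with rfl | rfl | rfl | rfl
    · obtain ⟨a, e⟩ := X.mem_V.1 (W.memV h hy' (by rwa [zero_mul, X.v_zero, mul_one] at hγ))
      exact ⟨a, Or.inl e⟩
    · obtain ⟨a, e⟩ := W.same h hy hy' hβ (by rwa [one_mul] at hγ)
      exact ⟨a, Or.inr (Or.inl e)⟩
    · obtain ⟨a, e⟩ := W.same h (k3 _ hy) hy' b2 hγ
      exact ⟨a, Or.inr (Or.inr (Or.inl e))⟩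
    · obtain ⟨a, e⟩ := W.same h (mul_mem hy (k3 _ hy)) hy' b3 (by rw [hγ]; congr 2; ring)
      exact ⟨a, Or.inr (Or.inr (Or.inr e))⟩

omit h in
theorem exists_y : ∃ y ∈ Y, y ∉ X.V := by
  obtain ⟨y, hy, e⟩ := W.surjY 1
  refine ⟨y, hy, fun hV => ?_⟩
  obtain ⟨a, rfl⟩ := X.mem_V.1 hV
  rw [X.v_t, eq_comm, mul_eq_left, X.v_eq_one] at e
  exact one_ne_zero e

omit h in
theorem cv {y : G} (hy : y ∈ Y) (a : F) : Commute y (X.v a) := cj_eq_iff.1 (W.cV y (W.YR hy) a)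

theorem comm {y y' : G} (hy : y ∈ Y) (hy' : y' ∈ Y) : Commute y y' := by
  obtain ⟨y1, h1, hV⟩ := W.exists_y
  obtain ⟨k, k1, h2, -, β, -, -, ⟨a, ha⟩, hg⟩ := W.gen h h1 hV
  set y2 := cj (X.h k) y1 with hy2
  have c12 : Commute y1 y2 := by
    obtain ⟨c, hc⟩ := X.mem_V.1 (swap W.toTw.VR W.sq (d := y1⁻¹ * y2⁻¹) (one_mem _) (W.YR h1)
      (W.YR h2) (by rw [one_mul, mul_assoc, mul_inv_cancel_left, mul_inv_cancel]; exact one_mem _))
    have e1 : y1 * y2 = X.v c * (y2 * y1) := by rw [← hc]; group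
    have e2 := congrArg (cj (X.h k)) e1
    rw [cj_mul, cj_mul, cj_mul, ← hy2, ha, X.h_v, ← mul_assoc, ← mul_assoc, mul_assoc _ (X.v a),
      ← (W.cv h2 a).eq, ← mul_assoc, ← mul_assoc, mul_left_inj, mul_left_inj, e1, ← mul_assoc,
      ← X.v_add, eq_comm, mul_eq_right, X.v_eq_one] at e2
    have : c = 0 := by linear_combination (k : F) * e2 - c * k1 - (k * c) * X.char
    rw [this, X.v_zero, one_mul] at e1
    exact e1
  have key : ∀ u ∈ Y, Commute u y1 → Commute u y2 → ∀ w ∈ Y, Commute u w := fun u hu a b w hw => by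
    obtain ⟨c, rfl | rfl | rfl | rfl⟩ := hg w hw
    exacts [W.cv hu c, a.mul_right (W.cv hu c), b.mul_right (W.cv hu c),
      (a.mul_right b).mul_right (W.cv hu c)]
  exact key y hy (key y1 h1 (Commute.refl _) c12 y hy).symm
    (key y2 h2 c12.symm (Commute.refl _) y hy).symm y' hy'

theorem card (h4 : Nat.card F = 4) : Nat.card Y = 16 := by
  have h1 := card_orb Y X.t
  have h2 : orb Y X.t = (fun x => X.t * x) '' (X.V : Set G) := by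
    ext x
    constructor
    · rintro ⟨y, hy, rfl⟩
      obtain ⟨β, e⟩ := W.hb y (W.YR hy)
      exact ⟨_, X.v_mem_V β, e.symm⟩
    · rintro ⟨u, hu, rfl⟩
      obtain ⟨a, rfl⟩ := X.mem_V.1 hu
      exact W.surjY a
  have h3 : Y ⊓ centralizer {X.t} = X.V := le_antisymm (fun y hy => W.memV h hy.1 (mem_cen.1 hy.2))
    fun u hu => ⟨W.VY hu, mem_cen.2 (X.E_comm (X.iE.le hu) X.iE.mem)⟩
  rw [h2, h3, ncard_coset, X.card_V, h4] at h1
  exact h1.symm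

theorem el_or : (∀ y ∈ Y, y * y = 1) ∨ ∀ y ∈ Y, y * y = 1 → y ∈ X.V := by
  by_contra! hc
  obtain ⟨⟨y, hy, h1⟩, y1, hy1, h2, hV⟩ := hc
  obtain ⟨k, -, k2, -, β, -, -, -, hg⟩ := W.gen h hy1 hV
  have h3 : cj (X.h k) y1 * cj (X.h k) y1 = 1 := cj_sq h2
  have key : ∀ u ∈ Y, ∀ w ∈ Y, u * u = 1 → w * w = 1 → u * w * (u * w) = 1 := fun u hu w hw a b => by
    rw [mul_assoc, ← mul_assoc w, (W.comm h hw hu).eq, mul_assoc, b, mul_one, a]
  have hv := fun a => W.VY (X.v_mem_V a)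
  obtain ⟨c, rfl | rfl | rfl | rfl⟩ := hg y hy
  exacts [h1 (X.v_sq c), h1 (key _ hy1 _ (hv c) h2 (X.v_sq c)), h1 (key _ k2 _ (hv c) h3 (X.v_sq c)),
    h1 (key _ (mul_mem hy1 k2) _ (hv c) (key _ hy1 _ k2 h2 h3) (X.v_sq c))]

theorem inv {y1 : G} (hy1 : y1 ∈ Y) (hV : y1 ∉ X.V) (hi : cj X.t y1 = y1⁻¹) {y : G} (hy : y ∈ Y) :
    cj X.t y = y⁻¹ := by
  obtain ⟨k, -, k2, -, β, -, -, -, hg⟩ := W.gen h hy1 hV
  have h3 : cj X.t (cj (X.h k) y1) = (cj (X.h k) y1)⁻¹ := by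
    conv_lhs => rw [← X.h_t k, cj_cj, hi, cj_inv]
  have key : ∀ u ∈ Y, ∀ w ∈ Y, cj X.t u = u⁻¹ → cj X.t w = w⁻¹ → cj X.t (u * w) = (u * w)⁻¹ :=
    fun u hu w hw a b => by rw [cj_mul, a, b, (W.comm h hu hw).eq, _root_.mul_inv_rev]
  have hv := fun a => W.VY (X.v_mem_V a)
  have hi' : ∀ a, cj X.t (X.v a) = (X.v a)⁻¹ := fun a => by rw [X.t_v, X.v_inv]
  obtain ⟨c, rfl | rfl | rfl | rfl⟩ := hg y hy
  exacts [hi' c, key _ hy1 _ (hv c) hi (hi' c), key _ k2 _ (hv c) h3 (hi' c),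
    key _ (mul_mem hy1 k2) _ (hv c) (key _ hy1 _ k2 hi h3) (hi' c)]

end Yw

end H25.L2.QN
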